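/-
Finite enumerations in the centraliser algebras of the two Singer-type elements of `G₂(3)`.
-/
import Cfsg.Agent.Lib.G23.Lit

set_option autoImplicit false
set_option maxRecDepth 100000

namespace CfsgLib.G23

/-- The involutions in the algebra of `H13`. -/
theorem E13_inv : ∀ a0 a1 a2 a3 a4 a5 a6 : Z3, spn H13 a0 a1 a2 a3 a4 a5 a6 * spn H13 a0 a1 a2 a3 a4 a5 a6 = 1 →
    spn H13 a0 a1 a2 a3 a4 a5 a6 ∈ [1, spn H13 2 0 0 0 0 0 0, spn H13 0 1 2 0 2 1 1, spn H13 0 2 1 0 1 2 2,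
      spn H13 1 1 0 0 2 2 2, spn H13 1 1 1 0 2 0 0, spn H13 2 2 0 0 1 1 1, spn H13 2 2 2 0 1 0 0] := by
  decide +kernel

/-- The involutions in the algebra of `H7`. -/
theorem E7_inv : ∀ a0 a1 a2 a3 a4 a5 a6 : Z3, spn H7 a0 a1 a2 a3 a4 a5 a6 * spn H7 a0 a1 a2 a3 a4 a5 a6 = 1 →
    spn H7 a0 a1 a2 a3 a4 a5 a6 ∈ [1, spn H7 2 0 0 0 0 0 0, spn H7 1 2 2 2 2 2 2, spn H7 2 1 1 1 1 1 1] := by
  decide +kernel

theorem neg13 : spn H13 2 0 0 0 0 0 0 = -1 := by decide +kernel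
theorem neg7 : spn H7 2 0 0 0 0 0 0 = -1 := by decide +kernel

/-- Witness data: an element whose fifth power is trivial but which is not trivial. -/


def W5 (t : M7) (w : M7) (n : ℕ) : Prop := (t * w) ^ n ≠ 1 ∧ ((t * w) ^ n) ^ 5 = 1

instance (t w : M7) (n : ℕ) : Decidable (W5 t w n) := inferInstanceAs (Decidable (_ ∧ _))

theorem w13a : W5 (spn H13 0 1 2 0 2 1 1) (G10 * G4) 2 := by decide +kernel
theorem w13b : W5 (spn H13 0 2 1 0 1 2 2) (G10 * G4) 2 := by decide +kernel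
theorem w13c : W5 (spn H13 1 1 0 0 2 2 2) (G0 * G8) 16 := by decide +kernel
theorem w13d : W5 (spn H13 1 1 1 0 2 0 0) (G0 * G8) 16 := by decide +kernel
theorem w13e : W5 (spn H13 2 2 0 0 1 1 1) (G0 * G8) 16 := by decide +kernel
theorem w13f : W5 (spn H13 2 2 2 0 1 0 0) (G0 * G8) 16 := by decide +kernel
theorem w7a : W5 (spn H7 1 2 2 2 2 2 2) (G0 * G2 * G11) 3 := by decide +kernel
theorem w7b : W5 (spn H7 2 1 1 1 1 1 1) (G0 * G2 * G11) 6 := by decide +kernel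

end CfsgLib.G23
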