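/-
The abstract argument for the spectrum of `G₂(3)` from its seven-dimensional representation.
-/
import Cfsg.Agent.Lib.G23.Enum

set_option autoImplicit false
set_option maxRecDepth 100000

namespace CfsgLib.G23

open Matrix

/-- A matrix commuting with `h` and with a cyclic vector lies in the span of the powers of `h`. -/
theorem comm_span (h B' : M7) (j : Fin 7) (hB : (Matrix.of fun i (k : Fin 7) => (h ^ (k : ℕ)) i j) * B' = 1)
    (M : M7) (hM : M * h = h * M) : ∃ a0 a1 a2 a3 a4 a5 a6 : Z3, M = spn h a0 a1 a2 a3 a4 a5 a6 := by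
  set B : M7 := Matrix.of fun i (k : Fin 7) => (h ^ (k : ℕ)) i j with hBdef
  set v : Fin 7 → Z3 := fun i => (if i = j then 1 else 0) with hv
  have hcol : ∀ (X : M7) (i : Fin 7), (X *ᵥ v) i = X i j := by
    intro X i
    simp [Matrix.mulVec, dotProduct, hv]
  set a : Fin 7 → Z3 := B' *ᵥ (M *ᵥ v) with ha
  have hS : ∀ X : M7, (a 0 • h ^ 0 + a 1 • h ^ 1 + a 2 • h ^ 2 + a 3 • h ^ 3 + a 4 • h ^ 4 + a 5 • h ^ 5 + a 6 • h ^ 6) *ᵥ v = B *ᵥ a := by
    intro _
    ext i
    rw [hcol]
    simp only [Matrix.mulVec, dotProduct, Fin.sum_univ_seven, Matrix.add_apply, Matrix.smul_apply, smul_eq_mul, hBdef, Matrix.of_apply]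
    simp only [Fin.val_zero, Fin.val_one, Fin.val_two]
    have e3 : ((3 : Fin 7) : ℕ) = 3 := rfl
    have e4 : ((4 : Fin 7) : ℕ) = 4 := rfl
    have e5 : ((5 : Fin 7) : ℕ) = 5 := rfl
    have e6 : ((6 : Fin 7) : ℕ) = 6 := rfl
    rw [e3, e4, e5, e6]
    ring
  refine ⟨a 0, a 1, a 2, a 3, a 4, a 5, a 6, ?_⟩
  unfold spn
  set S : M7 := a 0 • h ^ 0 + a 1 • h ^ 1 + a 2 • h ^ 2 + a 3 • h ^ 3 + a 4 • h ^ 4 + a 5 • h ^ 5 + a 6 • h ^ 6 with hSdef
  have hSv : S *ᵥ v = M *ᵥ v := by
    rw [hS 1, ha, Matrix.mulVec_mulVec, hB, Matrix.one_mulVec]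
  have hSc : S * h = h * S := by
    simp only [hSdef, add_mul, mul_add, Matrix.smul_mul, Matrix.mul_smul]
    simp only [← pow_succ, ← pow_succ']
  have hMp : ∀ n : ℕ, M * h ^ n = h ^ n * M := by
    intro n
    exact (Commute.pow_right hM n)
  have hSp : ∀ n : ℕ, S * h ^ n = h ^ n * S := by
    intro n
    exact (Commute.pow_right hSc n)
  have hcolE : M * B = S * B := by
    ext i k
    have e1 : (M * B) i k = ((M * h ^ (k : ℕ)) *ᵥ v) i := by
      rw [hcol]
      simp only [Matrix.mul_apply, hBdef, Matrix.of_apply]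
    have e2 : (S * B) i k = ((S * h ^ (k : ℕ)) *ᵥ v) i := by
      rw [hcol]
      simp only [Matrix.mul_apply, hBdef, Matrix.of_apply]
    rw [e1, e2, hMp, hSp, ← Matrix.mulVec_mulVec, ← Matrix.mulVec_mulVec, hSv]
  calc M = M * (B * B') := by rw [hB, mul_one]
    _ = S * (B * B') := by rw [← mul_assoc, hcolE, mul_assoc]
    _ = S := by rw [hB, mul_one]

open Polynomial in
/-- Frobenius in the span of the powers. -/
theorem spn_frob (h : M7) (a0 a1 a2 a3 a4 a5 a6 : Z3) (n : ℕ) :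
    spn h a0 a1 a2 a3 a4 a5 a6 ^ (3 ^ n) = spn (h ^ (3 ^ n)) a0 a1 a2 a3 a4 a5 a6 := by
  have hf : Fact (Nat.Prime 3) := ⟨Nat.prime_three⟩
  set p : Z3[X] := C a0 + C a1 * X + C a2 * X ^ 2 + C a3 * X ^ 3 + C a4 * X ^ 4 + C a5 * X ^ 5 + C a6 * X ^ 6 with hp
  have hs : ∀ g : M7, spn g a0 a1 a2 a3 a4 a5 a6 = aeval g p := by
    intro g
    simp [spn, hp, map_add, map_mul, Polynomial.aeval_C, Polynomial.aeval_X, Algebra.algebraMap_eq_smul_one, map_pow]
  rw [hs, hs, ← map_pow]
  have he : p ^ (3 ^ n) = expand Z3 (3 ^ n) p := by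
    induction n with
    | zero => simp
    | succ n ih =>
      rw [pow_succ, pow_mul, ih, ← ZMod.expand_card (p := 3), ← expand_mul]
      simp [mul_comm]
  rw [he, Polynomial.expand_aeval]

/-- Abstract framework: a finite group with a faithful seven-dimensional representation. -/
structure Ctx (G : Type*) [Group G] where
  R : G →* M7
  inj : Function.Injective R
  gen : Fin 12 → G
  hgen : ∀ r, R (gen r) = Gl r
  card : Nat.card G = 4245696
  center : ∀ x : G, (∀ g, x * g = g * x) → x = 1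

variable {G : Type*} [Group G] (C : Ctx G)

namespace Ctx

lemma eq_one_iff (x : G) : C.R x = 1 ↔ x = 1 := by
  constructor
  · intro h
    exact C.inj (by rw [h, map_one])
  · rintro rfl
    exact map_one _

lemma pow_eq_one_iff (x : G) (n : ℕ) : C.R x ^ n = 1 ↔ x ^ n = 1 := by
  rw [← map_pow, C.eq_one_iff]

/-- Elements with the prescribed images. -/
noncomputable def e13 : G := C.gen 0 * C.gen 4 * C.gen 9
noncomputable def e7 : G := C.gen 0 * C.gen 1 * C.gen 3 * C.gen 11
noncomputable def e6 : G := C.gen 0 * C.gen 0 * C.gen 11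

lemma R_e13 : C.R C.e13 = H13 := by
  simp only [e13, map_mul, C.hgen]
  rfl

lemma R_e7 : C.R C.e7 = H7 := by
  simp only [e7, map_mul, C.hgen]
  rfl

lemma R_e6 : C.R C.e6 = H6 := by
  simp only [e6, map_mul, C.hgen]
  rfl

lemma order_e13 : orderOf C.e13 = 13 := by
  haveI : Fact (Nat.Prime 13) := ⟨by norm_num⟩
  apply orderOf_eq_prime
  · rw [← C.pow_eq_one_iff, C.R_e13]
    exact H13_pow
  · intro h
    have := (C.eq_one_iff _).2 h
    rw [C.R_e13] at this
    exact H13_ne this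

lemma order_e7 : orderOf C.e7 = 7 := by
  haveI : Fact (Nat.Prime 7) := ⟨by norm_num⟩
  apply orderOf_eq_prime
  · rw [← C.pow_eq_one_iff, C.R_e7]
    exact H7_pow
  · intro h
    have := (C.eq_one_iff _).2 h
    rw [C.R_e7] at this
    exact H7_ne this

lemma order_e6 : orderOf C.e6 = 6 := by
  apply orderOf_eq_of_pow_and_pow_div_prime (by norm_num)
  · rw [← C.pow_eq_one_iff, C.R_e6]
    exact H6_pow
  · intro p hp hd
    have hp6 : p = 2 ∨ p = 3 := by
      have : p ∈ Nat.primeFactors 6 := by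
        simp [hp, hd]
      have e : Nat.primeFactors 6 = {2, 3} := by
        decide +kernel
      rw [e] at this
      simpa using this
    rcases hp6 with rfl | rfl
    · rw [show 6 / 2 = 3 by norm_num, Ne, ← C.pow_eq_one_iff, C.R_e6]
      exact H6_ne3
    · rw [show 6 / 3 = 2 by norm_num, Ne, ← C.pow_eq_one_iff, C.R_e6]
      exact H6_ne2

variable [Finite G]

include C in
/-- No element of order five. -/
lemma no_five (x : G) (h1 : x ≠ 1) (h5 : x ^ 5 = 1) : False := by
  haveI : Fact (Nat.Prime 5) := ⟨by norm_num⟩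
  have ho : orderOf x = 5 := orderOf_eq_prime h5 h1
  have hd : orderOf x ∣ Nat.card G := orderOf_dvd_natCard x
  rw [ho, C.card] at hd
  omega

/-- A witness excludes a matrix. -/
lemma no_witness {t w : M7} {n : ℕ} (hw : W5 t w n) {c u : G} (hc : C.R c = t) (hu : C.R u = w) : False := by
  apply C.no_five ((c * u) ^ n)
  · intro h
    apply hw.1
    rw [← hc, ← hu, ← map_mul, ← map_pow, h, map_one]
  · have := hw.2
    rw [← hc, ← hu, ← map_mul, ← map_pow] at this
    exact (C.pow_eq_one_iff _ _).1 this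

/-- The central element is excluded. -/
lemma no_neg {c : G} (hc : C.R c = -1) : False := by
  have h1 : c = 1 := by
    apply C.center
    intro g
    apply C.inj
    rw [map_mul, map_mul, hc]
    simp
  rw [h1, map_one] at hc
  have : (1 : M7) ≠ -1 := by decide +kernel
  exact this hc

include C in
/-- Prime factors of the group order. -/
lemma prime_cases {r : ℕ} (hr : r.Prime) (hd : r ∣ Nat.card G) : r = 2 ∨ r = 3 ∨ r = 7 ∨ r = 13 := by
  rw [C.card] at hd
  have e : (4245696 : ℕ) = 2 ^ 6 * 3 ^ 6 * 7 * 13 := by norm_num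
  rw [e] at hd
  rcases (Nat.Prime.dvd_mul hr).1 hd with h | h
  · rcases (Nat.Prime.dvd_mul hr).1 h with h | h
    · rcases (Nat.Prime.dvd_mul hr).1 h with h | h
      · left
        exact (Nat.prime_dvd_prime_iff_eq hr Nat.prime_two).1 (hr.dvd_of_dvd_pow h)
      · right; left
        exact (Nat.prime_dvd_prime_iff_eq hr Nat.prime_three).1 (hr.dvd_of_dvd_pow h)
    · right; right; left
      exact (Nat.prime_dvd_prime_iff_eq hr (by norm_num)).1 h
  · right; right; right
    exact (Nat.prime_dvd_prime_iff_eq hr (by norm_num)).1 h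

/-- Conjugating an element of a Sylow-cyclic prime into a fixed subgroup. -/
lemma exists_conj {p : ℕ} [hp : Fact p.Prime] (hp2 : ¬ p ^ 2 ∣ Nat.card G) {g h : G} (hg : orderOf g = p) (hh : orderOf h = p) :
    ∃ a : G, Subgroup.zpowers (a * g * a⁻¹) = Subgroup.zpowers h := by
  have hPg : IsPGroup p (Subgroup.zpowers g) := by
    apply IsPGroup.of_card (n := 1)
    rw [Nat.card_zpowers, hg, pow_one]
  have hPh : IsPGroup p (Subgroup.zpowers h) := by
    apply IsPGroup.of_card (n := 1)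
    rw [Nat.card_zpowers, hh, pow_one]
  obtain ⟨P, hP⟩ := hPg.exists_le_sylow
  obtain ⟨Q, hQ⟩ := hPh.exists_le_sylow
  obtain ⟨a, ha⟩ := MulAction.exists_smul_eq G P Q
  refine ⟨a, ?_⟩
  have hcardQ : Nat.card (Q : Subgroup G) ≤ p := by
    obtain ⟨n, hn⟩ := (IsPGroup.iff_card).1 Q.isPGroup'
    have hd : Nat.card (Q : Subgroup G) ∣ Nat.card G := Subgroup.card_subgroup_dvd_card _
    rw [hn] at hd ⊢
    have hn1 : n ≤ 1 := by
      by_contra hcon
      apply hp2
      exact (pow_dvd_pow p (by omega)).trans hd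
    calc p ^ n ≤ p ^ 1 := Nat.pow_le_pow_right hp.out.pos hn1
      _ = p := pow_one p
  have hQeq : Subgroup.zpowers h = (Q : Subgroup G) := by
    apply Subgroup.eq_of_le_of_card_ge hQ
    rw [Nat.card_zpowers, hh]
    exact hcardQ
  have hmem : a * g * a⁻¹ ∈ (Q : Subgroup G) := by
    rw [← ha, Sylow.coe_subgroup_smul]
    exact ⟨g, hP (Subgroup.mem_zpowers g), rfl⟩
  rw [← hQeq] at hmem
  have hord : orderOf (a * g * a⁻¹) = p := by
    have : orderOf (a * g * a⁻¹) = orderOf g :=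
      orderOf_injective (MulAut.conj a).toMonoidHom (MulAut.conj a).injective g
    rw [this, hg]
  apply Subgroup.eq_of_le_of_card_ge ((Subgroup.zpowers_le).2 hmem)
  rw [Nat.card_zpowers, Nat.card_zpowers, hord, hh]

/-- Reduction of a commuting pair to the explicit element. -/
lemma comm_reduce {p : ℕ} [hp : Fact p.Prime] (hp2 : ¬ p ^ 2 ∣ Nat.card G) {g c h : G} (hg : orderOf g = p) (hh : orderOf h = p)
    (hgc : g * c = c * g) : ∃ a : G, C.R (a * c * a⁻¹) * C.R h = C.R h * C.R (a * c * a⁻¹) := by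
  obtain ⟨a, ha⟩ := exists_conj hp2 hg hh
  refine ⟨a, ?_⟩
  rw [← map_mul, ← map_mul]
  congr 1
  have hm : h ∈ Subgroup.zpowers (a * g * a⁻¹) := by
    rw [ha]
    exact Subgroup.mem_zpowers h
  obtain ⟨k, hk⟩ := hm
  have hk' : (a * g * a⁻¹) ^ k = h := hk
  have hcomm : Commute (a * g * a⁻¹) (a * c * a⁻¹) := by
    show a * g * a⁻¹ * (a * c * a⁻¹) = a * c * a⁻¹ * (a * g * a⁻¹)
    simp only [mul_assoc, inv_mul_cancel_left]
    rw [← mul_assoc g, hgc, mul_assoc]
  have := (hcomm.zpow_left k)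
  rw [hk'] at this
  exact this.eq.symm

theorem H13_27 : H13 ^ (3 ^ 3) = H13 := by
  rw [show 3 ^ 3 = 13 * 2 + 1 by norm_num, pow_succ, pow_mul, H13_pow, one_pow, one_mul]
theorem H7_729 : H7 ^ (3 ^ 6) = H7 := by
  rw [show 3 ^ 6 = 7 * 104 + 1 by norm_num, pow_succ, pow_mul, H7_pow, one_pow, one_mul]

/-- Elements commuting with `H13` have order dividing 26. -/
lemma c13 {c : G} (hc : C.R c * H13 = H13 * C.R c) : c ^ 26 = 1 := by
  obtain ⟨a0, a1, a2, a3, a4, a5, a6, h⟩ := comm_span H13 Bi13 3 Bi13_spec (C.R c) hc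
  have h1 : C.R c ^ (3 ^ 3) = C.R c := by
    rw [h, spn_frob, H13_27]
  rw [← map_pow] at h1
  have h2 := C.inj h1
  have h3 : c ^ 26 * c = 1 * c := by
    rw [← pow_succ, one_mul]
    exact h2
  exact mul_right_cancel h3

/-- Elements commuting with `H7` have order dividing 728. -/
lemma c7 {c : G} (hc : C.R c * H7 = H7 * C.R c) : c ^ 728 = 1 := by
  obtain ⟨a0, a1, a2, a3, a4, a5, a6, h⟩ := comm_span H7 Bi7 3 Bi7_spec (C.R c) hc
  have h1 : C.R c ^ (3 ^ 6) = C.R c := by
    rw [h, spn_frob, H7_729]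
  rw [← map_pow] at h1
  have h2 := C.inj h1
  have h3 : c ^ 728 * c = 1 * c := by
    rw [← pow_succ, one_mul]
    exact h2
  exact mul_right_cancel h3

/-- Involutions commuting with `H13`. -/
lemma i13 {c : G} (hc : C.R c * H13 = H13 * C.R c) (h2 : c * c = 1) : c = 1 := by
  obtain ⟨a0, a1, a2, a3, a4, a5, a6, h⟩ := comm_span H13 Bi13 3 Bi13_spec (C.R c) hc
  have h3 : spn H13 a0 a1 a2 a3 a4 a5 a6 * spn H13 a0 a1 a2 a3 a4 a5 a6 = 1 := by
    rw [← h, ← map_mul, h2, map_one]
  have h4 := E13_inv _ _ _ _ _ _ _ h3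
  rw [← h] at h4
  have hu1 : C.R (C.gen 10 * C.gen 4) = G10 * G4 := by
    rw [map_mul, C.hgen, C.hgen]
    rfl
  have hu2 : C.R (C.gen 0 * C.gen 8) = G0 * G8 := by
    rw [map_mul, C.hgen, C.hgen]
    rfl
  simp only [List.mem_cons, List.not_mem_nil, or_false] at h4
  rcases h4 with h4 | h4 | h4 | h4 | h4 | h4 | h4 | h4
  · exact (C.eq_one_iff c).1 h4
  · rw [neg13] at h4
    exact (C.no_neg h4).elim
  · exact (C.no_witness w13a h4 hu1).elim
  · exact (C.no_witness w13b h4 hu1).elim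
  · exact (C.no_witness w13c h4 hu2).elim
  · exact (C.no_witness w13d h4 hu2).elim
  · exact (C.no_witness w13e h4 hu2).elim
  · exact (C.no_witness w13f h4 hu2).elim

/-- Involutions commuting with `H7`. -/
lemma i7 {c : G} (hc : C.R c * H7 = H7 * C.R c) (h2 : c * c = 1) : c = 1 := by
  obtain ⟨a0, a1, a2, a3, a4, a5, a6, h⟩ := comm_span H7 Bi7 3 Bi7_spec (C.R c) hc
  have h3 : spn H7 a0 a1 a2 a3 a4 a5 a6 * spn H7 a0 a1 a2 a3 a4 a5 a6 = 1 := by
    rw [← h, ← map_mul, h2, map_one]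
  have h4 := E7_inv _ _ _ _ _ _ _ h3
  rw [← h] at h4
  have hu1 : C.R (C.gen 0 * C.gen 2 * C.gen 11) = G0 * G2 * G11 := by
    rw [map_mul, map_mul, C.hgen, C.hgen, C.hgen]
    rfl
  simp only [List.mem_cons, List.not_mem_nil, or_false] at h4
  rcases h4 with h4 | h4 | h4 | h4
  · exact (C.eq_one_iff c).1 h4
  · rw [neg7] at h4
    exact (C.no_neg h4).elim
  · exact (C.no_witness w7a h4 hu1).elim
  · exact (C.no_witness w7b h4 hu1).elim

include C in
/-- Commuting pairs with an element of order 13. -/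
lemma bad13 {g c : G} (hg : orderOf g = 13) (hgc : g * c = c * g) {q : ℕ} (hq : q = 2 ∨ q = 3 ∨ q = 7) (hc : orderOf c = q) : False := by
  haveI : Fact (Nat.Prime 13) := ⟨by norm_num⟩
  obtain ⟨a, ha⟩ := C.comm_reduce (p := 13) (by rw [C.card]; norm_num) hg C.order_e13 hgc
  rw [C.R_e13] at ha
  have h1 := C.c13 ha
  have h2 : c ^ 26 = 1 := by
    rw [conj_pow] at h1
    exact conj_eq_one_iff.1 h1
  have h3 : q ∣ 26 := by
    rw [← hc]
    exact orderOf_dvd_of_pow_eq_one h2
  rcases hq with rfl | rfl | rfl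
  · have h4 : c * c = 1 := by
      rw [← pow_two, ← hc, pow_orderOf_eq_one]
    have h5 : a * c * a⁻¹ * (a * c * a⁻¹) = 1 := by
      rw [← pow_two, conj_pow, pow_two, h4]
      simp
    have h6 := C.i13 ha h5
    have h7 : c = 1 := conj_eq_one_iff.1 h6
    rw [h7, orderOf_one] at hc
    omega
  · omega
  · omega

include C in
/-- Commuting pairs with an element of order 7. -/
lemma bad7 {g c : G} (hg : orderOf g = 7) (hgc : g * c = c * g) {q : ℕ} (hq : q = 2 ∨ q = 3) (hc : orderOf c = q) : False := by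
  haveI : Fact (Nat.Prime 7) := ⟨by norm_num⟩
  obtain ⟨a, ha⟩ := C.comm_reduce (p := 7) (by rw [C.card]; norm_num) hg C.order_e7 hgc
  rw [C.R_e7] at ha
  have h1 := C.c7 ha
  have h2 : c ^ 728 = 1 := by
    rw [conj_pow] at h1
    exact conj_eq_one_iff.1 h1
  have h3 : q ∣ 728 := by
    rw [← hc]
    exact orderOf_dvd_of_pow_eq_one h2
  rcases hq with rfl | rfl
  · have h4 : c * c = 1 := by
      rw [← pow_two, ← hc, pow_orderOf_eq_one]
    have h5 : a * c * a⁻¹ * (a * c * a⁻¹) = 1 := by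
      rw [← pow_two, conj_pow, pow_two, h4]
      simp
    have h6 := C.i7 ha h5
    have h7 : c = 1 := conj_eq_one_iff.1 h6
    rw [h7, orderOf_one] at hc
    omega
  · omega

include C in
/-- The prime graph. -/
theorem spectrum {x : G} {r s : ℕ} (hr : r.Prime) (hs : s.Prime) (hne : r ≠ s) (hx : orderOf x = r * s) : r * s = 6 := by
  have hpos : orderOf x ≠ 0 := by
    rw [hx]
    exact Nat.mul_ne_zero hr.ne_zero hs.ne_zero
  have hrd : r ∣ orderOf x := by
    rw [hx]
    exact Dvd.intro _ rfl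
  have hsd : s ∣ orderOf x := by
    rw [hx]
    exact Dvd.intro_left _ rfl
  have hor : orderOf (x ^ (orderOf x / r)) = r := orderOf_pow_orderOf_div hpos hrd
  have hos : orderOf (x ^ (orderOf x / s)) = s := orderOf_pow_orderOf_div hpos hsd
  have hcomm : x ^ (orderOf x / r) * x ^ (orderOf x / s) = x ^ (orderOf x / s) * x ^ (orderOf x / r) := by
    rw [← pow_add, ← pow_add, add_comm]
  have hr' := C.prime_cases hr (hrd.trans (orderOf_dvd_natCard x))
  have hs' := C.prime_cases hs (hsd.trans (orderOf_dvd_natCard x))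
  rcases hr' with rfl | rfl | rfl | rfl <;> rcases hs' with rfl | rfl | rfl | rfl
  · exact (hne rfl).elim
  · rfl
  · exact (C.bad7 hos hcomm.symm (Or.inl rfl) hor).elim
  · exact (C.bad13 hos hcomm.symm (Or.inl rfl) hor).elim
  · rfl
  · exact (hne rfl).elim
  · exact (C.bad7 hos hcomm.symm (Or.inr rfl) hor).elim
  · exact (C.bad13 hos hcomm.symm (Or.inr (Or.inl rfl)) hor).elim
  · exact (C.bad7 hor hcomm (Or.inl rfl) hos).elim
  · exact (C.bad7 hor hcomm (Or.inr rfl) hos).elim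
  · exact (hne rfl).elim
  · exact (C.bad13 hos hcomm.symm (Or.inr (Or.inr rfl)) hor).elim
  · exact (C.bad13 hor hcomm (Or.inl rfl) hos).elim
  · exact (C.bad13 hor hcomm (Or.inr (Or.inl rfl)) hos).elim
  · exact (C.bad13 hor hcomm (Or.inr (Or.inr rfl)) hos).elim
  · exact (hne rfl).elim

end Ctx

end CfsgLib.G23
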