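/-
Element orders in `PSL₂(13)`.
-/
import Cfsg.Agent.S0243

set_option autoImplicit false

namespace CfsgLib.G23

open Matrix

instance fact13 : Fact (Nat.Prime 13) := ⟨by norm_num⟩

/-- The Chebyshev sequence. -/
def uu {R : Type*} [CommRing R] (τ : R) : ℕ → R
  | 0 => 0
  | 1 => 1
  | n + 2 => τ * uu τ (n + 1) - uu τ n

lemma uu_map {R S : Type*} [CommRing R] [CommRing S] (ι : R →+* S) (τ : R) (n : ℕ) : ι (uu τ n) = uu (ι τ) n := by
  induction n using Nat.strong_induction_on with
  | _ n ih =>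
    match n with
    | 0 => simp [uu]
    | 1 => simp [uu]
    | n + 2 =>
      simp only [uu, map_sub, map_mul]
      rw [ih _ (by omega), ih _ (by omega)]

theorem uu_13 : ∀ τ : ZMod 13, uu τ 6 = 0 ∨ uu τ 7 = 0 ∨ uu τ 13 = 0 := by
  decide +kernel

variable {E : Type*} [Field E]

lemma pow_uu (A : Matrix (Fin 2) (Fin 2) E) (hA : A.det = 1) (n : ℕ) :
    A ^ (n + 1) = uu (A 0 0 + A 1 1) (n + 1) • A - uu (A 0 0 + A 1 1) n • (1 : Matrix (Fin 2) (Fin 2) E) := by
  have hCH : A * A = (A 0 0 + A 1 1) • A - (1 : Matrix (Fin 2) (Fin 2) E) := by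
    rw [Matrix.det_fin_two] at hA
    ext i j
    fin_cases i <;> fin_cases j <;> simp [Matrix.mul_apply, Fin.sum_univ_two]
    · linear_combination -hA
    · ring
    · ring
    · linear_combination -hA
  induction n with
  | zero =>
    simp [uu]
  | succ n ih =>
    rw [pow_succ, ih]
    simp only [uu]
    rw [sub_mul, Matrix.smul_mul, Matrix.smul_mul, hCH, one_mul, smul_sub, smul_smul]
    simp only [sub_smul, mul_smul]
    rw [smul_comm (uu _ (n + 1)) (A 0 0 + A 1 1) A]
    abel

/-- In the projective group, powers are trivial when the matrix power is scalar. -/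
lemma mk_pow_eq_one (A : Matrix.SpecialLinearGroup (Fin 2) E) (n : ℕ) (hn : 0 < n) (h : uu (A.1 0 0 + A.1 1 1) n = 0) :
    (QuotientGroup.mk A : ProjectiveSpecialLinearGroup (Fin 2) E) ^ n = 1 := by
  obtain ⟨m, rfl⟩ : ∃ m, n = m + 1 := ⟨n - 1, by omega⟩
  rw [← QuotientGroup.mk_pow]
  rw [QuotientGroup.eq_one_iff]
  have h1 := pow_uu A.1 A.2 m
  rw [h, zero_smul, zero_sub] at h1
  rw [Matrix.SpecialLinearGroup.mem_center_iff]
  set c := uu (A.1 0 0 + A.1 1 1) m with hc
  have h2 : ((A ^ (m + 1) : Matrix.SpecialLinearGroup (Fin 2) E) : Matrix (Fin 2) (Fin 2) E) = A.1 ^ (m + 1) := rfl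
  refine ⟨-c, ?_, ?_⟩
  · have h3 := (A ^ (m + 1)).2
    rw [h2, h1, Matrix.det_fin_two] at h3
    simp at h3
    simp only [Fintype.card_fin]
    linear_combination h3
  · rw [h2, h1]
    ext i j
    fin_cases i <;> fin_cases j <;> simp

variable [Fintype E]

/-- Every element of `PSL₂(13)` has order dividing 6, 7 or 13. -/
theorem psl13_cases (hE : Fintype.card E = 13) (y : ProjectiveSpecialLinearGroup (Fin 2) E) : y ^ 6 = 1 ∨ y ^ 7 = 1 ∨ y ^ 13 = 1 := by
  haveI : CharP E 13 := charP_of_card_eq_prime hE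
  let σ : ZMod 13 ≃+* E := ZMod.ringEquivOfPrime E (by norm_num) hE
  obtain ⟨A, rfl⟩ := QuotientGroup.mk_surjective y
  have h := uu_13 (σ.symm (A.1 0 0 + A.1 1 1))
  have hm : ∀ (τ : E) (n : ℕ), uu (σ.symm τ) n = 0 → uu τ n = 0 := by
    intro τ n hn
    have := uu_map (σ.symm : E →+* ZMod 13) τ n
    have h2 : (σ.symm : E →+* ZMod 13) (uu τ n) = 0 := by
      rw [this]
      exact hn
    exact (map_eq_zero_iff _ σ.symm.injective).1 h2
  rcases h with h | h | h
  · exact Or.inl (mk_pow_eq_one A 6 (by norm_num) (hm _ _ h))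
  · exact Or.inr (Or.inl (mk_pow_eq_one A 7 (by norm_num) (hm _ _ h)))
  · exact Or.inr (Or.inr (mk_pow_eq_one A 13 (by norm_num) (hm _ _ h)))

/-- The order of `PSL₂(13)`. -/
theorem psl13_card (hE : Fintype.card E = 13) : Nat.card (ProjectiveSpecialLinearGroup (Fin 2) E) = 1092 := by
  have h := Cfsg.Agent.S0243.result hE 2 (le_refl 2)
  simp only [Fin.prod_univ_two, Fin.val_zero, Fin.val_one] at h
  norm_num at h
  omega

/-- An element of order six in `PSL₂(13)`. -/
theorem psl13_six (hE : Fintype.card E = 13) : ∃ y : ProjectiveSpecialLinearGroup (Fin 2) E, orderOf y = 6 := by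
  haveI : CharP E 13 := charP_of_card_eq_prime hE
  let σ : ZMod 13 ≃+* E := ZMod.ringEquivOfPrime E (by norm_num) hE
  have hab : σ 2 * σ 7 = 1 := by
    rw [← map_mul, show (2 : ZMod 13) * 7 = 1 by decide, map_one]
  let A : Matrix.SpecialLinearGroup (Fin 2) E := ⟨!![σ 2, 0; 0, σ 7], by
    rw [Matrix.det_fin_two_of]
    rw [mul_zero, sub_zero, hab]⟩
  have hpow : ∀ n : ℕ, (A ^ n).1 = !![σ 2 ^ n, 0; 0, σ 7 ^ n] := by
    intro n
    induction n with
    | zero =>
      simp only [pow_zero]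
      ext i j
      fin_cases i <;> fin_cases j <;> simp
    | succ n ih =>
      have : (A ^ (n + 1)).1 = (A ^ n).1 * A.1 := by
        rw [pow_succ]
        rfl
      rw [this, ih]
      show _ * !![σ 2, 0; 0, σ 7] = _
      rw [Matrix.mul_fin_two]
      simp [pow_succ]
  have hy : ∀ n : ℕ, (QuotientGroup.mk A : ProjectiveSpecialLinearGroup (Fin 2) E) ^ n = 1 → σ 2 ^ n = σ 7 ^ n := by
    intro n hn
    rw [← QuotientGroup.mk_pow, QuotientGroup.eq_one_iff, Matrix.SpecialLinearGroup.mem_center_iff] at hn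
    obtain ⟨r, -, hr⟩ := hn
    have h1 : (A ^ n).1 = Matrix.scalar (Fin 2) r := hr.symm
    rw [hpow] at h1
    have h2 := congrFun (congrFun h1 0) 0
    have h3 := congrFun (congrFun h1 1) 1
    simp at h2 h3
    rw [h2, h3]
  have hy2 : (QuotientGroup.mk A : ProjectiveSpecialLinearGroup (Fin 2) E) ^ 6 = 1 := by
    rw [← QuotientGroup.mk_pow, QuotientGroup.eq_one_iff, Matrix.SpecialLinearGroup.mem_center_iff]
    refine ⟨σ 12, ?_, ?_⟩
    · rw [Fintype.card_fin, ← map_pow, show (12 : ZMod 13) ^ 2 = 1 by decide, map_one]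
    · rw [hpow, ← map_pow, ← map_pow, show (2 : ZMod 13) ^ 6 = 12 by decide, show (7 : ZMod 13) ^ 6 = 12 by decide]
      ext i j
      fin_cases i <;> fin_cases j <;> simp
  refine ⟨QuotientGroup.mk A, ?_⟩
  apply orderOf_eq_of_pow_and_pow_div_prime (by norm_num) hy2
  intro p hp hd
  have hp6 : p = 2 ∨ p = 3 := by
    have : p ∈ Nat.primeFactors 6 := by
      simp [hp, hd]
    have e : Nat.primeFactors 6 = {2, 3} := by
      decide +kernel
    rw [e] at this
    simpa using this
  rcases hp6 with rfl | rfl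
  · rw [show 6 / 2 = 3 by norm_num]
    intro h
    have := hy 3 h
    rw [← map_pow, ← map_pow] at this
    have h2 := σ.injective this
    revert h2
    decide
  · rw [show 6 / 3 = 2 by norm_num]
    intro h
    have := hy 2 h
    rw [← map_pow, ← map_pow] at this
    have h2 := σ.injective this
    revert h2
    decide

end CfsgLib.G23
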