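/-
The seven-dimensional representation of `G₂(3)` over the prime field.
-/
import Cfsg.Agent.Lib.G23.Abs
import Cfsg.Agent.Lib.Ree.Rep7
import Cfsg.Agent.S1055
import Cfsg.Agent.S1059

set_option autoImplicit false
set_option maxRecDepth 100000
set_option synthInstance.maxHeartbeats 400000
set_option synthInstance.maxSize 1024

namespace CfsgLib.G23

open Cfsg.Lie Cfsg.Lie.ChevalleyDatum CfsgLib.Chev CfsgLib.Ree Matrix

/-- The seven coordinates. -/
def idx7 : Fin 7 → chevG2.Idx :=
  ![Sum.inl ⟨0, by decide⟩, Sum.inr ⟨2, by decide⟩, Sum.inr ⟨3, by decide⟩, Sum.inr ⟨4, by decide⟩,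
    Sum.inr ⟨7, by decide⟩, Sum.inr ⟨8, by decide⟩, Sum.inr ⟨9, by decide⟩]

theorem idx7_J : ∀ i, J7 (idx7 i) := by decide +kernel
theorem idx7_inj : Function.Injective idx7 := by decide +kernel
theorem idx7_surj : ∀ k : chevG2.Idx, J7 k → ∃ i, idx7 i = k := by decide +kernel

theorem tab_x : ∀ r : Fin 12, (Matrix.of fun i j => chevG2.x Z3 r.val 1 (idx7 i) (idx7 j) : M7) = Gl r := by
  decide +kernel

variable {F : Type*} [Field F] [CharP F 3] [Finite F]

/-- Restriction and reduction. -/
def resZ (ι : F →+* Z3) (g : Matrix chevG2.Idx chevG2.Idx F) : M7 := Matrix.of fun i j => ι (g (idx7 i) (idx7 j))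

omit [CharP F 3] [Finite F] in
lemma sum_idx7 {A : Type*} [AddCommMonoid A] (f : chevG2.Idx → A) (hf : ∀ k, ¬ J7 k → f k = 0) : ∑ k, f k = ∑ i, f (idx7 i) := by
  classical
  rw [← Finset.sum_image (s := Finset.univ) (g := idx7) (f := f) (fun a _ b _ h => idx7_inj h)]
  symm
  apply Finset.sum_subset (Finset.subset_univ _)
  intro k _ hk
  apply hf
  intro hJ
  obtain ⟨i, hi⟩ := idx7_surj k hJ
  exact hk (Finset.mem_image.2 ⟨i, Finset.mem_univ _, hi⟩)

omit [Finite F] in
lemma resZ_mul (ι : F →+* Z3) {g h : Matrix chevG2.Idx chevG2.Idx F} (hh : JP h) : resZ ι (g * h) = resZ ι g * resZ ι h := by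
  ext i j
  simp only [resZ, Matrix.of_apply, Matrix.mul_apply]
  rw [sum_idx7 (fun k => g (idx7 i) k * h k (idx7 j))]
  · rw [map_sum]
    simp only [map_mul]
  · intro k hk
    show g (idx7 i) k * h k (idx7 j) = 0
    rw [hh k (idx7 j) (idx7_J j) hk, mul_zero]

omit [CharP F 3] [Finite F] in
lemma resZ_one (ι : F →+* Z3) : resZ ι (1 : Matrix chevG2.Idx chevG2.Idx F) = 1 := by
  ext i j
  simp only [resZ, Matrix.of_apply]
  by_cases h : i = j
  · subst h
    simp
  · rw [Matrix.one_apply_ne h, Matrix.one_apply_ne (fun e => h (idx7_inj e)), map_zero]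

lemma group_le_JP : chevG2.group F ≤ JPsub F := by
  unfold ChevalleyDatum.group
  rw [Subgroup.closure_le]
  rintro g ⟨r, t, hg⟩
  show JP (g : Matrix chevG2.Idx chevG2.Idx F)
  rw [hg]
  exact fun row col hc hr => xMat_J7 r t row col hc hr

/-- The representation. -/
noncomputable def repR (ι : F →+* Z3) : ↥(chevG2.group F) →* M7 where
  toFun x := resZ ι ((x : GL chevG2.Idx F) : Matrix chevG2.Idx chevG2.Idx F)
  map_one' := by
    simp [resZ_one]
  map_mul' a b := by
    simp only [Subgroup.coe_mul, Units.val_mul]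
    exact resZ_mul ι (group_le_JP b.2)

/-- The root elements at one. -/
noncomputable def genG (r : Fin 12) : ↥(chevG2.group F) := ⟨TG2.good.xG r.val 1, TG2.good.mem_group r.2 1⟩

lemma repR_gen (ι : F →+* Z3) (r : Fin 12) : repR ι (genG (F := F) r) = Gl r := by
  rw [← tab_x r]
  ext i j
  have h := TG2.good.x_map_hom ι r.val (1 : F)
  rw [map_one] at h
  have h2 := congrFun (congrFun h (idx7 i)) (idx7 j)
  simpa [repR, resZ, genG, TG2.good.xG_val] using h2

/-- The framework. -/
noncomputable def mkCtx (ι : F →+* Z3) (hF : Nat.card F = 3) : Ctx ↥(chevG2.group F) := by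
  classical
  have hne : ∃ a : F, a ≠ 0 ∧ a ≠ 1 := by
    refine ⟨-1, ?_, ?_⟩
    · simp
    · intro h
      have h3 : (3 : F) = 0 := by
        have := CharP.cast_eq_zero F 3
        exact_mod_cast this
      have h2 : (2 : F) = 0 := by
        linear_combination -h
      have h1 : (1 : F) = 0 := by
        linear_combination h3 - h2
      exact one_ne_zero h1
  have hS := (Cfsg.Agent.S1055.result hne)
  haveI := Fintype.ofFinite F
  have hc : Fintype.card F = 3 := by
    rw [← Nat.card_eq_fintype_card, hF]
  exact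
  { R := repR ι
    inj := by
      rcases hS.1.eq_bot_or_eq_top_of_normal (repR ι).ker (repR ι).normal_ker with h | h
      · exact (MonoidHom.ker_eq_bot_iff _).1 h
      · exfalso
        have h1 : genG (F := F) 0 ∈ (repR ι).ker := by
          rw [h]
          trivial
        have h2 : repR ι (genG (F := F) 0) = 1 := h1
        rw [repR_gen] at h2
        revert h2
        decide +kernel
    gen := genG
    hgen := repR_gen ι
    card := by
      rw [Cfsg.Agent.S1059.result hc]
      norm_num
    center := by
      intro x hx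
      have hZ : x ∈ Subgroup.center ↥(chevG2.group F) := by
        rw [Subgroup.mem_center_iff]
        intro g
        exact (hx g).symm
      rcases hS.1.eq_bot_or_eq_top_of_normal (Subgroup.center ↥(chevG2.group F)) inferInstance with h | h
      · rw [h] at hZ
        exact hZ
      · exfalso
        apply hS.2
        refine ⟨⟨fun a b => ?_⟩⟩
        have : b ∈ Subgroup.center ↥(chevG2.group F) := by
          rw [h]
          trivial
        exact Subgroup.mem_center_iff.1 this a
        }

end CfsgLib.G23
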